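import Cfsg.Agent.H8.Dickson
import Cfsg.Agent.H8.DicksonCore

/-! Consequences of Dickson's theorem for subgroups of `SL₂` generated by transvections. -/

set_option autoImplicit false
set_option linter.unusedSimpArgs false
set_option linter.unusedSectionVars false

namespace Cfsg.Agent.H9.Sp

open MulAction Matrix OnePoint H8
open scoped MatrixGroups
open Matrix.ProjGenLinGroup (mk)

variable {K : Type*} [Field K] [Finite K]

theorem neg_one_mem (h2 : (2 : K) ≠ 0) (G : Subgroup (GL (Fin 2) K))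
    (hdet : ∀ g ∈ G, g 0 0 * g 1 1 - g 0 1 * g 1 0 = 1)
    (hu : mat 1 1 0 1 (by simp) ∈ G) {τ : K} (hτ : τ ≠ 0) (hl : mat 1 0 τ 1 (by simp) ∈ G) :
    ∃ g ∈ G, g 0 0 = -1 ∧ g 0 1 = 0 ∧ g 1 0 = 0 ∧ g 1 1 = -1 := by
  have := Fintype.ofFinite K
  obtain ⟨p, hp⟩ := CharP.exists K
  obtain ⟨n, hpp, hn⟩ := FiniteField.card K p
  have : Fact p.Prime := ⟨hpp⟩
  have : Finite PGL(2, K) := Finite.of_surjective _ ProjGenLinGroup.mk_surjective
  have hu2 : (mat 1 1 0 1 (by simp) * mat 1 1 0 1 (by simp) : GL (Fin 2) K) =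
      mat 1 2 0 1 (by simp) := by
    ext i j
    fin_cases i <;> fin_cases j <;> simp [Matrix.mul_apply, Fin.sum_univ_two, one_add_one_eq_two]
  have hpair : ∀ {L : Type _} [Field L] [Algebra K L] (x y : OnePoint L), x ≠ y →
      ¬ G.map ProjGenLinGroup.mk ≤ pairStab K x y := by
    intro L _ _ x y hxy h
    have h3 := h ⟨_, hu, rfl⟩
    have h4 : mk (mat (1 : K) 2 0 1 (by simp)) • x = x ∧ mk (mat (1 : K) 2 0 1 (by simp)) • y = y := by
      rw [← hu2, map_mul, mul_smul, mul_smul]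
      rcases h3 with ⟨a, b⟩ | ⟨a, b⟩ <;> simp [a, b]
    have h5 : ∀ z : L, mk (mat (1 : K) 2 0 1 (by simp)) • (z : OnePoint L) ≠ z := by
      intro z hz
      rw [smul_coe_eq_coe] at hz
      simp only [mat00, mat01, mat10, mat11, map_one, map_zero, one_mul, zero_mul, zero_add,
        mul_one, add_eq_left] at hz
      exact h2 ((map_eq_zero _).1 hz)
    cases x with
    | coe z => exact h5 z h4.1
    | infty =>
      cases y with
      | coe z => exact h5 z h4.2
      | infty => exact hxy rfl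
  have hinv : ∃ h ∈ G.map ProjGenLinGroup.mk, h ≠ 1 ∧ h ^ 2 = 1 := by
    have hS : ∀ k : Subfield K, ∀ g : PGL(2, K), ∃ h ∈ cj g (PS k), h ≠ 1 ∧ h ^ 2 = 1 := by
      intro k g
      refine ⟨g * mk (mat 0 1 (-1) 0 (by simp)) * g⁻¹, ?_, ?_, ?_⟩
      · rw [mem_cj]
        simp only [mul_assoc, inv_mul_cancel, mul_one, inv_mul_cancel_left]
        refine mem_PS.2 ⟨_, rfl, fun i j => ?_, 1, k.one_mem, by simp⟩
        fin_cases i <;> fin_cases j <;> simp
      · rw [Ne, conj_eq_one_iff, mk_eq_one_iff]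
        simp
      · rw [conj_pow, conj_eq_one_iff, ← map_pow, mk_eq_one_iff]
        simp [sq, Matrix.mul_apply, Fin.sum_univ_two]
    rcases dickson p (G.map ProjGenLinGroup.mk) with ⟨x, hx⟩ | ⟨x, y, hxy, h⟩ | ⟨t, a, b, h1, h⟩ |
      ⟨k, hk, -⟩ | ⟨k, g, -, h | h⟩
    · exfalso
      have h3 : mk (mat (1 : K) 1 0 1 (by simp)) • x = x := hx ⟨_, hu, rfl⟩
      have h4 : mk (mat (1 : K) 0 τ 1 (by simp)) • x = x := hx ⟨_, hl, rfl⟩
      cases x with
      | coe z => simp [smul_coe_eq_coe] at h3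
      | infty => simp [smul_infty_eq_infty, hτ] at h4
    · exact absurd h (hpair x y hxy)
    · exfalso
      have h3 := h ⟨_, hu, rfl⟩
      have h4 : mk (mat (1 : K) 2 0 1 (by simp)) • (t : OnePoint (AlgebraicClosure K)) = t := by
        rw [← hu2, map_mul, mul_smul]
        rcases h3 with ⟨a, b⟩ | ⟨a, b⟩ <;> simp [a, b]
      rw [smul_coe_eq_coe] at h4
      simp only [mat00, mat01, mat10, mat11, map_one, map_zero, one_mul, zero_mul, zero_add,
        mul_one, add_eq_left] at h4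
      exact h2 ((map_eq_zero _).1 h4)
    · have hdvd : 2 ∣ Nat.card (G.map ProjGenLinGroup.mk) := by
        rcases hk with ⟨-, h⟩ | ⟨-, h⟩ | ⟨-, h⟩ <;> rw [h] <;> decide
      have : Fact (Nat.Prime 2) := ⟨Nat.prime_two⟩
      obtain ⟨x, hx⟩ := exists_prime_orderOf_dvd_card' 2 hdvd
      refine ⟨x, x.2, fun h => ?_, ?_⟩
      · have : x = 1 := Subtype.ext h
        simp [this] at hx
      · have := pow_orderOf_eq_one x
        rw [hx] at this
        exact congrArg Subtype.val this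
    · rw [h]; exact hS k g
    · obtain ⟨x, hx, hx'⟩ := hS k g
      rw [h]
      exact ⟨x, Subgroup.map_mono (PS_le_PG k) hx, hx'⟩
  obtain ⟨_, ⟨g, hg, rfl⟩, h3, h4⟩ := hinv
  rw [← map_pow, mk_eq_one_iff] at h4
  rw [Ne, mk_eq_one_iff] at h3
  have h5 := hdet g hg
  simp only [sq, Units.val_mul, Matrix.mul_apply, Fin.sum_univ_two] at h4
  obtain ⟨h6, h7, h8⟩ := h4
  have htr : g 0 0 + g 1 1 = 0 := by
    by_contra h9
    refine h3 ⟨?_, ?_, ?_⟩
    · exact (mul_eq_zero.1 (show g 0 1 * (g 0 0 + g 1 1) = 0 by linear_combination h6)).resolve_right h9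
    · exact (mul_eq_zero.1 (show g 1 0 * (g 0 0 + g 1 1) = 0 by linear_combination h7)).resolve_right h9
    · exact sub_eq_zero.1 ((mul_eq_zero.1 (show (g 0 0 - g 1 1) * (g 0 0 + g 1 1) = 0 by
        linear_combination h8)).resolve_right h9)
  refine ⟨g * g, G.mul_mem hg hg, ?_, ?_, ?_, ?_⟩ <;>
    simp only [Units.val_mul, Matrix.mul_apply, Fin.sum_univ_two]
  · linear_combination g 0 0 * htr - h5
  · exact h6
  · exact h7
  · linear_combination g 1 1 * htr - h5

theorem exists_diag_mem {F : Type*} [Field F] [Finite F] [Algebra F K] (h4 : 4 ≤ Nat.card F)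
    (G : Subgroup (GL (Fin 2) K))
    (hu : ∀ s : F, mat 1 (algebraMap F K s) 0 1 (by simp) ∈ G) {τ : K} (hτ : τ ≠ 0)
    (hl : mat 1 0 τ 1 (by simp) ∈ G) :
    ∃ g ∈ G, g 1 0 = 0 ∧ g 0 0 * g 1 1 = 1 ∧ g 0 0 * g 0 0 ≠ 1 := by
  have hc : 4 ≤ Nat.card {s : K // mat 1 s 0 1 (by simp) ∈ G} :=
    h4.trans (Nat.card_le_card_of_injective (fun s => ⟨_, hu s⟩) fun a b h =>
      (algebraMap F K).injective (congrArg Subtype.val h))
  obtain ⟨k, α, β, hα, h1, -, h3⟩ := dickson_core_GL G hc ⟨_, hl, hτ⟩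
  have hk : 4 ≤ Nat.card k :=
    h4.trans (Nat.card_le_card_of_injective (fun s => (⟨_, (h1 _).1 (hu s)⟩ : k)) fun a b h =>
      (algebraMap F K).injective (by
        have := congrArg Subtype.val h
        exact (div_left_inj' hα).1 this))
  obtain ⟨l, hl0, hl1⟩ : ∃ l : k, l ≠ 0 ∧ l * l ≠ 1 := by
    classical
    by_contra! h'
    have := Fintype.ofFinite k
    have h5 : (Finset.univ : Finset k) ⊆ {0, 1, -1} := fun x _ => by
      by_cases hx : x = 0
      · simp [hx]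
      · rcases mul_self_eq_one_iff.1 (h' x hx) with h | h <;> simp [h]
    have h6 := Finset.card_le_card h5
    have h7 : ({0, 1, -1} : Finset k).card ≤ 3 := Finset.card_le_three
    rw [Finset.card_univ, ← Nat.card_eq_fintype_card] at h6
    omega
  have hl0' : (l : K) ≠ 0 := fun h => hl0 (Subtype.ext h)
  have hD : GeneralLinearGroup.map k.subtype (SpecialLinearGroup.toGL
      (⟨!![l, 0; 0, l⁻¹], by simp [Matrix.det_fin_two, hl0]⟩ : SL(2, k))) =
      mat (l : K) 0 0 (l : K)⁻¹ (by simp [hl0']) := by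
    ext i j
    fin_cases i <;> fin_cases j <;> rfl
  have h9 := h3 ⟨!![l, 0; 0, l⁻¹], by simp [Matrix.det_fin_two, hl0]⟩
  rw [hD] at h9
  refine ⟨_, h9, ?_⟩
  have hinv : (mat α β 0 1 (by simpa using hα))⁻¹ = mat α⁻¹ (-β * α⁻¹) 0 1 (by simpa using hα) := by
    rw [inv_eq_iff_mul_eq_one]
    ext i j
    fin_cases i <;> fin_cases j <;> simp [Matrix.mul_apply, Fin.sum_univ_two, hα]
    field_simp
    ring
  rw [hinv]
  refine ⟨by simp [Matrix.mul_apply, Fin.sum_univ_two], ?_, ?_⟩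
  · simp [Matrix.mul_apply, Fin.sum_univ_two]
    field_simp
  · simp only [Units.val_mul, Matrix.mul_apply, Fin.sum_univ_two, mat00, mat01, mat10, mat11]
    intro h
    apply hl1
    apply Subtype.ext
    simp at h ⊢
    rw [← h]
    field_simp

end Cfsg.Agent.H9.Sp
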