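import Cfsg.Agent.H9.Sp.Sub1

/-! Subgroups of `Sp` in characteristic two covering the unipotent radical of a point stabiliser
modulo transvections: the cone of good vectors. -/

set_option autoImplicit false
set_option linter.unusedSimpArgs false
set_option linter.unusedSectionVars false
set_option linter.unusedVariables false

namespace Cfsg.Agent.H9.Sp

open Module Cfsg.Agent.H6

attribute [-simp] LinearEquiv.coe_inv Submodule.mem_map_equiv

variable {F : Type*} [Field F] {V : Type*} [AddCommGroup V] [Module F V] [FiniteDimensional F V]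
variable {B : V →ₗ[F] V →ₗ[F] F} {L : Subgroup (V ≃ₗ[F] V)}

/-- `L` covers the unipotent radical at `p` modulo transvections -/
def Good (B : V →ₗ[F] V →ₗ[F] F) (L : Subgroup (V ≃ₗ[F] V)) (p : V) : Prop :=
  ∀ y, B p y = 0 → ∃ c, R B L p y c

theorem Good.map (hL : L ≤ Sp B) {p : V} (h : Good B L p) {g : V ≃ₗ[F] V} (hg : g ∈ L) :
    Good B L (g p) := by
  intro y hy
  obtain ⟨c, hc⟩ := h (g⁻¹ y) (by rw [← Sp_left (hL hg)]; exact hy)
  exact ⟨c, by simpa using hc.conj hL hg⟩

theorem Good.smul {p : V} (h : Good B L p) (t : F) : Good B L (t • p) := by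
  intro y hy
  by_cases ht : t = 0
  · exact ⟨0, 1, L.one_mem, by simp [ht]⟩
  obtain ⟨c, hc⟩ := h (t • y) (by simpa [ht] using hy)
  exact ⟨c / t ^ 2, R_smul_left.2 (hc.congr rfl (by field_simp))⟩

theorem Good.of_smul {p : V} {t : F} (h : Good B L (t • p)) (ht : t ≠ 0) : Good B L p := by
  simpa [smul_smul, ht] using h.smul t⁻¹

theorem Good.congr {p p' : V} (h : Good B L p) (e : p = p') : Good B L p' := e ▸ h

theorem Good.tr {u s : V} (h : Good B L u) (hs : B u s = 0) :
    ∃ g ∈ L, ∀ v, B v u = 0 → g v = v + B v s • u := by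
  obtain ⟨c, g, hg, hx⟩ := h s hs
  exact ⟨g, hg, fun v hv => by rw [hx, hv]; simp⟩

theorem Good.add (hB : Symp B) (hL : L ≤ Sp B) {p v : V} (hv : Good B L v) (hp : Good B L p)
    (h : B v p = 0) : Good B L (v + p) := by
  by_cases h1 : ∃ a : F, v = a • p
  · obtain ⟨a, rfl⟩ := h1
    exact (hp.smul (a + 1)).congr (by module)
  push Not at h1
  obtain ⟨s, h2, h3⟩ := hB.exists_pair h1
  obtain ⟨g, hg, hx⟩ := hp.tr h2
  have := hv.map hL hg
  rwa [hx v h, h3, one_smul] at this

theorem Good.sub (hB : Symp B) (hL : L ≤ Sp B) {p v : V} (hv : Good B L v) (hp : Good B L p)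
    (h : B v p = 0) : Good B L (v - p) :=
  (hv.add hB hL (hp.smul (-1)) (by simp [h])).congr (by module)

theorem R.good (hL : L ≤ Sp B) {a y v : V} {c : F} (h : R B L a y c) (hv : Good B L v)
    (h1 : B v a = 1) : Good B L (v + y + (B v y + c) • a) := by
  obtain ⟨g, hg, hx⟩ := h
  have := hv.map hL hg
  rw [hx, h1] at this
  simpa using this

theorem Good.lemK (hB : Symp B) (hL : L ≤ Sp B) {a y : V} {c : F} (ha : Good B L a)
    (hay : B a y = 0) (hy : ∀ t : F, y ≠ t • a) (h : R B L y a c) (l : F) :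
    R B L a ((c * l) • y) (2 * l + c * l ^ 2) := by
  obtain ⟨s, h2, h3⟩ := hB.exists_pair hy
  obtain ⟨g, hg, hx⟩ := ha.tr (s := l • s) (by simp [h2])
  have h4 := h.conj hL hg
  rw [hx y (hB.comm.1 hay), hx a (hB.alt a)] at h4
  simp only [map_smul, h2, h3, smul_eq_mul, mul_zero, zero_smul, add_zero, mul_one] at h4
  have h5 : S2 B L y a c (1 + c * l) (2 * l + c * l ^ 2) := by
    obtain ⟨k, hk, hkx⟩ := h4
    exact ⟨k, hk, fun v => by rw [hkx]; simp only [map_add, map_smul, smul_eq_mul]; module⟩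
  have h6 : S2 B L y a c 1 0 := by
    obtain ⟨k, hk, hkx⟩ := h
    exact ⟨k, hk, fun v => by rw [hkx]; module⟩
  have h7 := (h5.add hB (h6.neg hB (hB.comm.1 hay)) (hB.comm.1 hay)).swap
  simp only [add_neg_cancel, neg_zero, add_zero, add_neg_cancel_comm] at h7
  exact h7.toR

theorem Good.all (hB : Symp B) (hL : L ≤ Sp B) {a b : V} (ha : Good B L a) (hba : B b a = 1)
    (h : ∀ α : F, Good B L (α • a + b)) (v : V) : Good B L v := by
  have k1 : ∀ v, B v a = 1 → Good B L v := by
    intro v hv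
    obtain ⟨c, hc⟩ := ha (v - b) (by simp [hB.skew a v, hB.skew a b, hv, hba])
    have := hc.good hL (h (-(B b (v - b) + c))) (by simp [hB.alt, hba])
    refine this.congr ?_
    simp only [map_add, map_smul, map_sub, LinearMap.add_apply, LinearMap.smul_apply,
      hB.skew a v, hB.skew a b, hv, hba, smul_eq_mul]
    module
  have k2 : ∀ v, B v a ≠ 0 → Good B L v := fun v hv =>
    (k1 ((B v a)⁻¹ • v) (by simp [hv])).of_smul (inv_ne_zero hv)
  by_cases hv : B v a = 0
  swap
  · exact k2 v hv
  by_cases h1 : ∃ t : F, a = t • v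
  · obtain ⟨t, rfl⟩ := h1
    exact ha.of_smul (by rintro rfl; simp at hba)
  push Not at h1
  obtain ⟨s, h2, h3⟩ := hB.exists_pair h1
  have h4 : B s a ≠ 0 := hB.ne_comm (by simp [h3])
  exact ((k2 (s + v) (by simpa [hv] using h4)).sub hB hL (k2 s h4)
    (by simp [hB.alt, h2])).congr (by abel)

/-- the standing hypotheses -/
structure PS (B : V →ₗ[F] V →ₗ[F] F) (L : Subgroup (V ≃ₗ[F] V)) : Prop where
  hB : Symp B
  h2 : (2 : F) = 0
  hL : L ≤ Sp B
  hsp : ∀ z, z ≠ 0 → ∃ w, Good B L w ∧ B w z = 1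
  hn : 3 ≤ finrank F V

theorem PS.sym (h : PS B L) (x y : V) : B x y = B y x := by
  rw [h.hB.skew]; linear_combination -B y x * h.h2

theorem PS.xx (h : PS B L) (x : V) : x + x = 0 := by rw [← two_smul F x, h.h2, zero_smul]

theorem PS.cc (h : PS B L) (c : F) : c + c = 0 := by linear_combination c * h.h2

theorem PS.sq [Finite F] (h : PS B L) (a : F) : ∃ b, a = b ^ 2 := by
  have : ringChar F = 2 := by
    have h1 := (ringChar.spec F 2).1 (by exact_mod_cast h.h2)
    rcases (Nat.dvd_prime Nat.prime_two).1 h1 with h3 | h3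
    · exact absurd h3 CharP.ringChar_ne_one
    · exact h3
  obtain ⟨b, hb⟩ := FiniteField.isSquare_of_char_two this a
  exact ⟨b, by rw [hb, pow_two]⟩

theorem PS.star (h : PS B L) {a y b : V} {c : F} (ha : Good B L a) (hy : Good B L y)
    (hay : B a y = 0) (hR : R B L a y c) (hb : Good B L b) (hba : B b a = 1) :
    Good B L (c • a + b) := by
  have h1 := hR.good h.hL hb hba
  have h2 := hy.add h.hB h.hL (ha.smul (B b y)) (by simp [h.sym y a, hay])
  refine (h1.sub h.hB h.hL h2 ?_).congr (by module)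
  simp [h.hB.alt, hay, h.sym y a, hba, h.cc]

variable [Finite F]

theorem PS.n1 (h : PS B L) (hna : ¬ ∀ v, Good B L v) {p y : V} {c : F} (hp : Good B L p)
    (hy : Good B L y) (hyp : B y p = 0) (hy0 : y ≠ 0) (hi : ∀ t : F, p ≠ t • y)
    (hR : R B L p y c) : c = 0 := by
  by_contra hc
  apply hna
  obtain ⟨b, hb, hby⟩ := h.hsp y hy0
  refine hy.all h.hB h.hL hby fun α => ?_
  obtain ⟨l, hl⟩ := h.sq (α / c)
  have := h.star hy (hp.smul (c * l)) (by simp [hyp]) (hy.lemK h.hB h.hL hyp hi hR l) hb hby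
  rwa [h.h2, zero_mul, zero_add, ← hl, mul_div_cancel₀ _ hc] at this

theorem PS.good_of (h : PS B L) {b y : V} (hb : Good B L b) (hby : B b y = 0)
    (h1 : Good B L (b + y)) : Good B L y :=
  (h1.sub h.hB h.hL hb (by simp [h.hB.alt, h.sym y b, hby])).congr (by abel)

theorem PS.n2 (h : PS B L) (hna : ¬ ∀ v, Good B L v) {a : V} {c : F} (ha : Good B L a)
    (ha0 : a ≠ 0) (hT : T B L a c) : c = 0 := by
  by_contra hc
  obtain ⟨b, hb, hba⟩ := h.hsp a ha0
  obtain ⟨e, he0, hae, hbe⟩ := exists_perp_pair (B := B) h.hn a b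
  choose θ hθ using fun s : F => ha (s • e) (by simp [hae])
  cases nonempty_fintype F
  obtain ⟨⟨s, i⟩, ⟨s', i'⟩, hne, heq⟩ := Fintype.exists_ne_map_eq_of_card_lt
    (fun x : F × Bool => θ x.1 + if x.2 then c else 0) (by
      have := Fintype.card_pos (α := F)
      simp; omega)
  have hss : s ≠ s' := by
    rintro rfl
    cases i <;> cases i' <;> simp [hc, eq_comm] at hne heq
  have k : ∀ s i, R B L a (s • e) (θ s + if i = true then c else 0) := by
    intro s i
    cases i
    · simpa using hθ s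
    · simpa using (hθ s).addT h.hB hT (by simp [hae])
  have h1 := (k s i).mul h.hB (k s' i') (by simp [hae]) (by simp [hae])
  simp only at heq
  rw [heq, h.cc, ← add_smul] at h1
  simp only [map_smul, LinearMap.smul_apply, h.hB.alt, smul_zero, add_zero] at h1
  have hs0 : s + s' ≠ 0 := fun h0 => hss (by linear_combination h0 - h.cc s')
  have h3 := h1.good h.hL hb hba
  simp only [map_smul, hbe, smul_zero, add_zero, zero_smul] at h3
  have h4 := h.good_of hb (by simp [hbe]) h3
  have h5 := h1.addT h.hB hT (by simp [hae])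
  rw [zero_add] at h5
  refine hc (h.n1 hna ha h4 (by simp [h.sym e a, hae]) (by simp [hs0, he0]) (fun t ht => ?_) h5)
  rw [ht] at hba
  simp [hbe] at hba

theorem PS.uniq (h : PS B L) (hna : ¬ ∀ v, Good B L v) {a y : V} {c d : F} (ha : Good B L a)
    (ha0 : a ≠ 0) (hay : B a y = 0) (h1 : R B L a y c) (h2 : R B L a y d) : c = d :=
  sub_eq_zero.1 (h.n2 hna ha ha0 (h1.subT h.hB h2 hay))

theorem PS.n3 (h : PS B L) (hna : ¬ ∀ v, Good B L v) {a b : V} {α : F} (ha : Good B L a)
    (hb : Good B L b) (hba : B b a = 1) (hα : Good B L (α • a + b)) : α = 0 := by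
  have ha0 : a ≠ 0 := by rintro rfl; simp at hba
  obtain ⟨e, f, hef, hae, haf, hbe, hbf⟩ := exists_hyp_perp h.hB h.hn (e := a) (f := b)
    (h.hB.ne_comm (by simp [hba]))
  choose θ hθ using fun s : F => ha (s • e) (by simp [hae])
  have hadd : ∀ s t, θ (s + t) = θ s + θ t := by
    intro s t
    have := (hθ s).mul h.hB (hθ t) (by simp [hae]) (by simp [hae])
    refine h.uniq hna ha ha0 (by simp [hae]) (hθ _) (this.congr (by module) ?_)
    simp [h.hB.alt]
  obtain ⟨t, ht⟩ : ∃ t : F, ∀ u, θ u = u * t → u = 0 := by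
    by_contra! h'
    choose u hu hu0 using h'
    have : Function.Injective u := by
      intro t t' htt
      have h1 := hu t
      rw [htt, hu t'] at h1
      exact (mul_left_cancel₀ (hu0 t') h1).symm
    obtain ⟨t, ht⟩ := Finite.injective_iff_surjective.1 this 0
    exact hu0 t ht
  have hinj : Function.Injective fun s => θ s + s * t := by
    intro s s' hs
    simp only at hs
    have := ht (s + s') (by
      rw [hadd]; linear_combination hs + h.cc (θ s') - h.cc (s * t))
    linear_combination this - h.cc s'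
  obtain ⟨η, hη⟩ := ha (t • f) (by simp [haf])
  obtain ⟨s, hs⟩ := Finite.injective_iff_surjective.1 hinj (α - η)
  simp only at hs
  have h1 : R B L a (s • e + t • f) α := by
    refine ((hθ s).mul h.hB hη (by simp [hae]) (by simp [haf])).congr rfl ?_
    simp only [map_smul, LinearMap.smul_apply, h.sym f e, hef, smul_eq_mul]
    linear_combination hs
  generalize hy : s • e + t • f = y at h1
  have hay : B a y = 0 := by simp [← hy, hae, haf]
  have hby : B b y = 0 := by simp [← hy, hbe, hbf]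
  by_cases hy0 : y = 0
  · rw [hy0, R_zero_iff] at h1
    exact h.n2 hna ha ha0 h1
  have h3 := h1.good h.hL hα (by simp [h.hB.alt, hba])
  have h4 := h.good_of hb hby (h3.congr (by
    simp only [map_add, map_smul, LinearMap.add_apply, LinearMap.smul_apply, hay, hby]
    linear_combination (norm := module) h.xx (α • a)))
  refine h.n1 hna ha h4 (by rw [h.sym, hay]) hy0 (fun t ht => ?_) h1
  rw [ht] at hba
  simp [hby] at hba

theorem PS.e1 (h : PS B L) (hna : ¬ ∀ v, Good B L v) {a b y : V} {c : F} (ha : Good B L a)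
    (hb : Good B L b) (hba : B b a = 1) (hay : B a y = 0) (hby : B b y = 0) (hR : R B L a y c)
    (α : F) : Good B L (α • a + b + y) ↔ α = c := by
  constructor
  · intro h1
    have h3 := hR.good h.hL h1 (by simp [h.hB.alt, hba, h.sym y a, hay])
    have := h.n3 hna ha hb hba (α := α + c) (h3.congr (by
      simp only [map_add, map_smul, LinearMap.add_apply, LinearMap.smul_apply, hay, hby, h.hB.alt]
      linear_combination (norm := module) h.xx y))
    linear_combination this - h.cc c
  · rintro rfl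
    exact (hR.good h.hL hb hba).congr (by rw [hby]; module)

theorem PS.e2 (h : PS B L) (hna : ¬ ∀ v, Good B L v) {a b y : V} {c : F} (ha : Good B L a)
    (hb : Good B L b) (hba : B b a = 1) (hay : B a y = 0) (hby : B b y = 0) (hR : R B L a y c) :
    Good B L y ↔ c = 0 := by
  rw [eq_comm, ← h.e1 hna ha hb hba hay hby hR 0, zero_smul, zero_add]
  exact ⟨fun hy => hb.add h.hB h.hL hy hby, h.good_of hb hby⟩

theorem hua (h2 : (2 : F) = 0) (θ θ' : F → F) (h1 : ∀ s t, θ (s + t) = θ s + θ t)
    (h1' : ∀ s t, θ' (s + t) = θ' s + θ' t) (h0 : ∀ s, θ s = 0 → s = 0)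
    (h0' : ∀ s, θ' s = 0 → s = 0) (hr : ∀ s, s ≠ 0 → θ' (s / θ s) = (θ s)⁻¹) (t : F) :
    θ t = t ^ 2 * θ 1 := by
  have inj : ∀ θ : F → F, (∀ s t, θ (s + t) = θ s + θ t) → (∀ s, θ s = 0 → s = 0) →
      Function.Injective θ := by
    intro θ h1 h0 s t hst
    have := h0 (s + t) (by rw [h1, hst]; linear_combination θ t * h2)
    linear_combination this - t * h2
  have hi := inj θ h1 h0
  have hi' := inj θ' h1' h0'
  choose f hf using Finite.injective_iff_surjective.1 hi
  have hz : θ 0 = 0 := by have := h1 0 0; simpa using this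
  have fadd : ∀ s t, f (s + t) = f s + f t := fun s t => hi (by rw [h1, hf, hf, hf])
  have f0 : ∀ s, s ≠ 0 → f s ≠ 0 := fun s hs h => hs (by rw [← hf s, h, hz])
  have k : ∀ s, s ≠ 0 → θ' (f s / s) = s⁻¹ := fun s hs => by simpa [hf] using hr _ (f0 s hs)
  have key : ∀ s, f (s ^ 2) = s * f 1 := by
    intro s
    by_cases hs : s = 0
    · simp only [hs, zero_mul]; exact hi (by simp [hf, hz])
    by_cases hs1 : s + 1 = 0
    · have : s = 1 := by linear_combination hs1 - h2
      simp [this]
    have h3 : f (s ^ 2 + s) / (s ^ 2 + s) = f s / s + f (s + 1) / (s + 1) := by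
      apply hi'
      rw [h1', k s hs, k _ hs1, k _ (by
        rw [show s ^ 2 + s = s * (s + 1) by ring]; exact mul_ne_zero hs hs1),
        show s ^ 2 + s = s * (s + 1) by ring]
      field_simp
      linear_combination -s * h2
    rw [fadd, fadd, show s ^ 2 + s = s * (s + 1) by ring] at h3
    field_simp at h3
    linear_combination h3 + s * f s * h2
  have h4 : ∀ s, θ (s * f 1) = s ^ 2 := fun s => by rw [← key, hf]
  have h5 := f0 1 one_ne_zero
  have h6 := h4 (t / f 1)
  have h7 := h4 (1 / f 1)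
  rw [div_mul_cancel₀ _ h5] at h6 h7
  rw [h6, h7]; field_simp

theorem PS.scale (h : PS B L) (hna : ¬ ∀ v, Good B L v) {a b y : V} {c : F} (ha : Good B L a)
    (hb : Good B L b) (hba : B b a = 1) (hay : B a y = 0) (hby : B b y = 0) (hR : R B L a y c)
    (t : F) : R B L a (t • y) (t ^ 2 * c) := by
  have ha0 : a ≠ 0 := by rintro rfl; simp at hba
  have hb0 : b ≠ 0 := by rintro rfl; simp at hba
  have hab : B a b = 1 := by rw [h.sym, hba]
  choose θ hθ using fun s : F => ha (s • y) (by simp [hay])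
  choose θ' hθ' using fun s : F => hb (s • y) (by simp [hby])
  have hadd : ∀ {a : V} {θ : F → F}, Good B L a → a ≠ 0 → B a y = 0 →
      (∀ s, R B L a (s • y) (θ s)) → ∀ s t, θ (s + t) = θ s + θ t := by
    intro a θ ha ha0 hay hθ s t
    have := (hθ s).mul h.hB (hθ t) (by simp [hay]) (by simp [hay])
    refine h.uniq hna ha ha0 (by simp [hay]) (hθ _) (this.congr (by module) ?_)
    simp [h.hB.alt]
  have hc : θ 1 = c := h.uniq hna ha ha0 hay (by simpa using hθ 1) hR
  by_cases hg : Good B L y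
  · have h1 := (h.e2 hna ha hb hba hay hby hR).1 hg
    have h3 := (h.e2 hna ha hb hba (by simp [hay]) (by simp [hby]) (hθ t)).1 (hg.smul t)
    simpa [h1, h3] using hθ t
  have h0 : ∀ s, θ s = 0 → s = 0 := fun s hs => by
    by_contra hs0
    exact hg (((h.e2 hna ha hb hba (by simp [hay]) (by simp [hby]) (hθ s)).2 hs).of_smul hs0)
  have := hua h.h2 θ θ' (hadd ha ha0 hay hθ) (hadd hb hb0 hby hθ') h0 (fun s hs => by
    by_contra hs0
    exact hg (((h.e2 hna hb ha hab (by simp [hby]) (by simp [hay]) (hθ' s)).2 hs).of_smul hs0))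
    (fun s hs => by
      have h1 : θ s ≠ 0 := fun h1 => hs (h0 s h1)
      have h3 := ((h.e1 hna ha hb hba (by simp [hay]) (by simp [hby]) (hθ s) _).2 rfl).smul (θ s)⁻¹
      refine ((h.e1 hna hb ha hab (by simp [hby]) (by simp [hay]) (hθ' _) _).1
        (h3.congr ?_)).symm
      match_scalars <;> field_simp) t
  rw [← hc, ← this]; exact hθ t

theorem PS.exists_QF (h : PS B L) (hna : ¬ ∀ v, Good B L v) :
    ∃ Q : V → F, QF B Q ∧ ∀ v, Good B L v ↔ Q v = 0 := by
  obtain ⟨z, -, hz⟩ := exists_ne_zero_of_finrank (K := (⊤ : Submodule F V)) (by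
    have := h.hn; simp; omega)
  obtain ⟨a, ha, haz⟩ := h.hsp z hz
  have ha0 : a ≠ 0 := by rintro rfl; simp at haz
  obtain ⟨b, hb, hba⟩ := h.hsp a ha0
  have hab : B a b = 1 := by rw [h.sym, hba]
  let π : V →ₗ[F] V := LinearMap.id + (B.flip a).smulRight b + (B.flip b).smulRight a
  have hπ : ∀ v, π v = v + B v a • b + B v b • a := fun v => rfl
  have hπa : ∀ v, B a (π v) = 0 := fun v => by simp [hπ, h.hB.alt, hab, h.sym a v, h.cc]
  have hπb : ∀ v, B b (π v) = 0 := fun v => by simp [hπ, h.hB.alt, hba, h.sym b v, h.cc]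
  choose φ hφ using fun v => ha (π v) (hπa v)
  have hsm : ∀ (t : F) v, φ (t • v) = t ^ 2 * φ v := fun t v =>
    h.uniq hna ha ha0 (hπa _) (hφ _) ((h.scale hna ha hb hba (hπa v) (hπb v) (hφ v) t).congr
      (by simp) rfl)
  have hQ : QF B fun v => φ v + B v a * B v b := by
    constructor
    · intro c v
      simp only [hsm, map_smul, LinearMap.smul_apply, smul_eq_mul]; ring
    · intro u v
      have := h.uniq hna ha ha0 (hπa _) (hφ (u + v))
        (((hφ u).mul h.hB (hφ v) (hπa u) (hπa v)).congr (by simp) rfl)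
      rw [this]
      simp only [hπ, map_add, map_smul, LinearMap.add_apply, LinearMap.smul_apply, h.hB.alt, hab,
        hba, smul_eq_mul, h.sym a u, h.sym b u, h.sym v u]
      linear_combination 2 * (B u a * B v b + B v a * B u b) * h.h2
  refine ⟨_, hQ, fun v => ?_⟩
  have k1 : ∀ v, B v a = 1 → (Good B L v ↔ φ v + B v a * B v b = 0) := by
    intro v hv
    have := h.e1 hna ha hb hba (hπa v) (hπb v) (hφ v) (B v b)
    rw [show B v b • a + b + π v = v by
      rw [hπ, hv]; linear_combination (norm := module) h.xx b + h.xx (B v b • a)] at this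
    rw [this, hv]
    constructor <;> intro h1
    · linear_combination h.cc (φ v) + h1
    · linear_combination h1 - h.cc (φ v)
  by_cases hv : B v a = 0
  · rw [hv, zero_mul, add_zero, ← h.e2 hna ha hb hba (hπa v) (hπb v) (hφ v), hπ, hv]
    constructor <;> intro h1
    · exact (h1.add h.hB h.hL (ha.smul (B v b)) (by simp [hv])).congr (by simp)
    · exact (h1.sub h.hB h.hL (ha.smul (B v b)) (by simp [hv, h.hB.alt])).congr (by simp)
  · have := k1 ((B v a)⁻¹ • v) (by simp [hv])
    rw [hQ.smul] at this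
    constructor <;> intro h1
    · simpa [hv] using this.1 (h1.smul _)
    · exact (this.2 (by simp only [h1, mul_zero])).of_smul (inv_ne_zero hv)

theorem PS.le_OQ (h : PS B L) {Q : V → F} (hQ : QF B Q) (hG : ∀ v, Good B L v ↔ Q v = 0) :
    L ≤ OQ Q := by
  intro g hg v
  let K : Submodule F V :=
    { carrier := {v | Q (g v) = Q v}
      add_mem' := fun {x y} hx hy => by
        simp only [Set.mem_ofPred_eq, map_add, hQ.add] at *
        rw [hx, hy, h.hL hg]
      zero_mem' := by simp
      smul_mem' := fun c x hx => by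
        simp only [Set.mem_ofPred_eq, map_smul, hQ.smul] at *
        rw [hx] }
  refine h.hB.mem_of_perp (K := K) fun s hs => ?_
  by_contra h1
  obtain ⟨w, hw, hws⟩ := h.hsp s (by rintro rfl; simp at h1)
  have := hs w (by
    change Q (g w) = Q w
    rw [(hG _).1 hw, (hG _).1 (hw.map h.hL hg)])
  simp [hws] at this

theorem PS.siegel (h : PS B L) {Q : V → F} (hQ : QF B Q) (hG : ∀ v, Good B L v ↔ Q v = 0)
    {p y : V} (hp : Q p = 0) (hy : B p y = 0) : R B L p y (Q y) := by
  by_cases hp0 : p = 0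
  · exact ⟨1, L.one_mem, by simp [hp0]⟩
  obtain ⟨c, g, hg, hx⟩ := (hG p).2 hp y hy
  obtain ⟨v, -, hv⟩ := h.hsp p hp0
  have := h.le_OQ hQ hG hg v
  rw [hx, hQ.add, hQ.add, hQ.smul, hQ.smul, hp] at this
  simp only [map_add, map_smul, LinearMap.add_apply, LinearMap.smul_apply, hv, h.sym y p, hy,
    smul_eq_mul] at this
  have hc : c = Q y := by linear_combination this - h.cc (B v y) - h.cc (Q y)
  exact ⟨g, hg, hc ▸ hx⟩

end Cfsg.Agent.H9.Sp
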