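import Cfsg.Agent.H9.Sp.Pt1

/-! Generation of orthogonal groups in characteristic two with the rank parity; the case of all
vectors good. -/

set_option autoImplicit false
set_option linter.unusedSimpArgs false
set_option linter.unusedSectionVars false
set_option linter.unusedVariables false

namespace Cfsg.Agent.H9.Sp

open Module Cfsg.Agent.H6

attribute [-simp] LinearEquiv.coe_inv Submodule.mem_map_equiv

variable {F : Type*} [Field F] {V : Type*} [AddCommGroup V] [Module F V] [FiniteDimensional F V]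
variable {B : V →ₗ[F] V →ₗ[F] F} {L : Subgroup (V ≃ₗ[F] V)} {Q : V → F}

/-- fixed space -/
def Fx (g : V ≃ₗ[F] V) : Submodule F V := LinearMap.ker ((g : V →ₗ[F] V) - 1)

theorem mem_Fx {g : V ≃ₗ[F] V} {x : V} : x ∈ Fx g ↔ g x = x := by simp [Fx, sub_eq_zero]

/-- rank of `g - 1` -/
noncomputable def rk (g : V ≃ₗ[F] V) : ℕ := finrank F (LinearMap.range ((g : V →ₗ[F] V) - 1))

theorem rk_add (g : V ≃ₗ[F] V) : rk g + finrank F (Fx g) = finrank F V :=
  LinearMap.finrank_range_add_finrank_ker _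

theorem Fx_le {g h : V ≃ₗ[F] V} {K : Submodule F V} (hK : ∀ v ∈ K, h v = v) :
    Fx (h * g) ⊓ K ≤ Fx g := by
  rintro v ⟨h1, h2⟩
  have h3 : h (g v) = v := mem_Fx.1 h1
  exact mem_Fx.2 (h.injective (by rw [h3, hK v h2]))

theorem QF.le_Sp (hQ : QF B Q) : OQ Q ≤ Sp B := by
  intro g hg u v
  have := hg (u + v)
  rw [map_add, hQ.add, hQ.add, hg, hg] at this
  linear_combination this

/-- the largest subgroup of `L` normal in the orthogonal group -/
def NC (Q : V → F) (L : Subgroup (V ≃ₗ[F] V)) : Subgroup (V ≃ₗ[F] V) where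
  carrier := {g | g ∈ OQ Q ∧ ∀ k ∈ OQ Q, k * g * k⁻¹ ∈ L}
  mul_mem' {a b} ha hb := ⟨mul_mem ha.1 hb.1, fun k hk => by
    convert mul_mem (ha.2 k hk) (hb.2 k hk) using 1; group⟩
  one_mem' := ⟨one_mem _, fun k hk => by simp⟩
  inv_mem' {a} ha := ⟨inv_mem ha.1, fun k hk => by
    convert inv_mem (ha.2 k hk) using 1; group⟩

theorem NC_le : NC Q L ≤ L := fun g hg => by simpa using hg.2 1 (one_mem _)

theorem NC_conj {g k : V ≃ₗ[F] V} (hg : g ∈ NC Q L) (hk : k ∈ OQ Q) : k * g * k⁻¹ ∈ NC Q L :=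
  ⟨mul_mem (mul_mem hk hg.1) (inv_mem hk), fun k' hk' => by
    convert hg.2 _ (mul_mem hk' hk) using 1; group⟩

theorem R.eq_mem {M : Subgroup (V ≃ₗ[F] V)} {x y : V} {c : F} (h : R B M x y c) {g : V ≃ₗ[F] V}
    (hg : ∀ v, g v = v + B v x • y + (B v y + c * B v x) • x) : g ∈ M := by
  obtain ⟨k, hk, hx⟩ := h
  rwa [show g = k from LinearEquiv.ext fun v => by rw [hg, hx]]

section

variable [Finite F] (h : PS B L) (hQ : QF B Q) (hLO : L ≤ OQ Q)
  (hS : ∀ p y, Q p = 0 → B p y = 0 → R B L p y (Q y))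
include h hQ hLO hS

theorem PS.siegel_NC {p y : V} (hp : Q p = 0) (hy : B p y = 0) : R B (NC Q L) p y (Q y) := by
  obtain ⟨g, hg, hx⟩ := hS p y hp hy
  refine ⟨g, ⟨hLO hg, fun k hk => ?_⟩, hx⟩
  refine (hS (k p) (k y) (by rw [hk, hp]) (by rw [hQ.le_Sp hk, hy])).eq_mem fun v => ?_
  simp only [LinearEquiv.mul_apply, hx, map_add, map_smul, apply_inv_apply, hk y]
  rw [Sp_right (hQ.le_Sp hk), Sp_right (hQ.le_Sp hk)]

theorem PS.refl_one {a b : V} (ha : Q a = 1) (hb : Q b = 1) :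
    tvE h.hB a 1 * tvE h.hB b 1 ∈ NC Q L := by
  have hab : Q (a + b) = B a b := by rw [hQ.add, ha, hb, h.cc, zero_add]
  by_cases h0 : B a b = 0
  · refine (h.siegel_NC hQ hLO hS (p := a + b) (y := a) (by rw [hab, h0])
      (by simp [h.hB.alt, h.sym b a, h0])).eq_mem fun v => ?_
    simp only [LinearEquiv.mul_apply, tvE_apply, map_add, map_smul, LinearMap.add_apply,
      LinearMap.smul_apply, h.sym b a, h0, ha]
    linear_combination (norm := module) -h.xx (B v a • a) - h.xx (B v b • a) - h.xx (B v a • b)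
  obtain ⟨z, h1, h3, h4⟩ := hQ.exists_nonsing h.hB h.hn h0
  obtain ⟨l, hl⟩ := h.sq (Q z / B a b)
  have hl0 : l ≠ 0 := by rintro rfl; simp [h4, h0] at hl
  obtain ⟨g, hg, hx⟩ := h.siegel_NC hQ hLO hS (p := z + l • (a + b)) (y := (l * B a b)⁻¹ • (a + b))
    (by
      rw [hQ.add, hQ.smul, hab, ← hl]
      simp [h.sym z, h1, h3, h0, h.cc])
    (by simp [h.sym z, h1, h3, h.hB.alt, h.sym b a, h.cc, ← two_mul, h.h2])
  have hga : g a = b := by
    rw [hx, hQ.smul, hab]
    simp only [map_add, map_smul, h1, h.hB.alt, smul_eq_mul, zero_add, smul_smul]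
    rw [mul_inv_cancel₀ (mul_ne_zero hl0 h0), show (l * B a b)⁻¹ * B a b +
      (l * B a b)⁻¹ ^ 2 * B a b * (l * B a b) = 0 by field_simp; rw [mul_zero]; exact h.cc 1]
    linear_combination (norm := module) h.xx a
  have hr : tvE h.hB a 1 ∈ OQ Q := by
    have := hQ.tvE h.hB h.h2 (w := a) (by simp [ha])
    rwa [ha, inv_one] at this
  have h5 : tvE h.hB a 1 * tvE h.hB b 1 = tvE h.hB a 1 * g * (tvE h.hB a 1)⁻¹ * g⁻¹ := by
    ext v
    simp only [LinearEquiv.mul_apply, tvE_inv_apply, map_sub, map_smul, apply_inv_apply, hga]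
    rw [← Sp_right (hQ.le_Sp hg.1), hga, tvE_apply h.hB b, map_add, map_smul]
    linear_combination (norm := module) h.xx ((1 * B v b) • tvE h.hB a 1 b)
  rw [h5]
  exact mul_mem (NC_conj hg hr) (inv_mem hg)

theorem PS.refl_mul {a b : V} (ha : Q a ≠ 0) (hb : Q b ≠ 0) :
    tvE h.hB a (Q a)⁻¹ * tvE h.hB b (Q b)⁻¹ ∈ NC Q L := by
  have k : ∀ a, Q a ≠ 0 → ∃ a', Q a' = 1 ∧ tvE h.hB a (Q a)⁻¹ = tvE h.hB a' 1 := by
    intro a ha
    obtain ⟨l, hl⟩ := h.sq (Q a)⁻¹
    refine ⟨l • a, by rw [hQ.smul, ← hl, inv_mul_cancel₀ ha], ?_⟩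
    ext v
    simp only [tvE_apply, map_smul, hl, smul_eq_mul]; module
  obtain ⟨a', h1, h3⟩ := k a ha
  obtain ⟨b', h4, h5⟩ := k b hb
  rw [h3, h5]; exact h.refl_one hQ hLO hS h1 h4

theorem PS.parity {a : V} (ha : Q a ≠ 0) (g : V ≃ₗ[F] V) (hg : g ∈ OQ Q) :
    (Even (rk g) ∧ g ∈ NC Q L) ∨ (Odd (rk g) ∧ tvE h.hB a (Q a)⁻¹ * g ∈ NC Q L) := by
  induction hk : rk g using Nat.strong_induction_on generalizing g with
  | _ k ih =>
  subst hk
  have hgS := hQ.le_Sp hg
  have hperp : ∀ x, ∀ w ∈ Fx g, B w (g x - x) = 0 := by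
    intro x w hw
    rw [map_sub, ← hgS w x, mem_Fx.1 hw, sub_self]
  have hQu : ∀ x, Q (g x - x) = B (g x) x := by
    intro x
    have := hQ.add (g x - x) x
    simp only [sub_add_cancel, hg x, map_sub, LinearMap.sub_apply, h.hB.alt] at this
    linear_combination -this - h.cc (B (g x) x)
  have hrO : ∀ u, Q u ≠ 0 → tvE h.hB u (Q u)⁻¹ ∈ OQ Q := fun u hu => hQ.tvE h.hB h.h2 hu
  have hrr : ∀ u c, tvE h.hB u c * tvE h.hB u c = 1 := by
    intro u c
    ext v
    simp only [LinearEquiv.mul_apply, tvE_apply, map_add, map_smul, LinearMap.add_apply,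
      LinearMap.smul_apply, h.hB.alt, LinearEquiv.coe_one, id]
    linear_combination (norm := module) h.xx ((c * B v u) • u)
  have e1 := rk_add g
  by_cases h1 : ∃ x, Q (g x - x) ≠ 0
  · obtain ⟨x, hx⟩ := h1
    set r := tvE h.hB (g x - x) (Q (g x - x))⁻¹ with hr
    have hxF : x ∉ Fx g := fun hx' => hx (by rw [mem_Fx.1 hx', sub_self, hQ.zero])
    have h3 : Fx g ⊔ Submodule.span F {x} ≤ Fx (r * g) := by
      refine sup_le (fun w hw => mem_Fx.2 ?_) ((Submodule.span_singleton_le_iff_mem _ _).2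
        (mem_Fx.2 ?_))
      · simp [hr, mem_Fx.1 hw, hperp x w hw, -map_sub]
      · rw [LinearEquiv.mul_apply, hr, tvE_apply, map_sub, h.hB.alt, ← hQu, zero_sub, mul_neg,
          inv_mul_cancel₀ hx]
        module
    have h4 := Submodule.finrank_mono h3
    rw [Submodule.finrank_sup_span_singleton hxF] at h4
    have h5 := Submodule.finrank_mono (Fx_le (g := g) (h := r)
      (K := LinearMap.ker (B.flip (g x - x))) fun v hv => by
        have : B v (g x - x) = 0 := hv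
        simp [hr, this, -map_sub])
    have h6 := finrank_inf_ker_ge (Fx (r * g)) (B.flip (g x - x))
    have e2 := rk_add (r * g)
    have e3 : rk g = rk (r * g) + 1 := by omega
    have e4 : g = r * (r * g) := by rw [← mul_assoc, hrr, one_mul]
    rcases ih (rk (r * g)) (by omega) (r * g) (mul_mem (hrO _ hx) hg) rfl with h7 | h7
    · refine Or.inr ⟨by rw [e3]; exact h7.1.add_one, ?_⟩
      rw [e4, ← mul_assoc]
      exact mul_mem (h.refl_mul hQ hLO hS ha hx) h7.2
    · refine Or.inl ⟨by rw [e3]; exact h7.1.add_one, ?_⟩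
      have := mul_mem (h.refl_mul hQ hLO hS hx ha) h7.2
      rwa [mul_assoc, ← mul_assoc (tvE h.hB a _), hrr, one_mul, ← e4] at this
  push Not at h1
  by_cases hg1 : g = 1
  · refine Or.inl ⟨?_, hg1 ▸ one_mem _⟩
    have : Fx g = ⊤ := by rw [eq_top_iff]; intro x _; rw [mem_Fx, hg1]; rfl
    rw [this, finrank_top] at e1
    rw [show rk g = 0 by omega]; decide
  obtain ⟨x, hx⟩ : ∃ x, g x - x ≠ 0 := by
    by_contra! h'
    exact hg1 (LinearEquiv.ext fun x => sub_eq_zero.1 (h' x))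
  obtain ⟨y, hy⟩ := h.hB.exists_one hx
  have hpp : B (g x - x) (g y - y) = 0 := by
    have := h1 (x + y)
    rw [map_add, show g x + g y - (x + y) = (g x - x) + (g y - y) by abel, hQ.add, h1, h1] at this
    simpa using this
  have hxx : ∀ x, B (g x) x = 0 := fun x => by rw [← hQu, h1]
  obtain ⟨s, hs, hsx⟩ := h.siegel_NC hQ hLO hS (h1 x) hpp
  rw [h1 y] at hsx
  have hy' := hy
  rw [map_sub, LinearMap.sub_apply] at hy'
  have hxF : x ∉ Fx g := fun hx' => hx (by rw [mem_Fx.1 hx', sub_self])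
  have hyF : y ∉ Fx g ⊔ Submodule.span F {x} := by
    intro hm
    obtain ⟨w, hw, z, hz, rfl⟩ := Submodule.mem_sup.1 hm
    obtain ⟨c, rfl⟩ := Submodule.mem_span_singleton.1 hz
    rw [map_add, map_smul, h.sym _ w, hperp x w hw] at hy
    simp [hxx, h.hB.alt] at hy
  have h3 : Fx g ⊔ Submodule.span F {x} ⊔ Submodule.span F {y} ≤ Fx (s * g) := by
    refine sup_le (sup_le (fun w hw => mem_Fx.2 ?_) ((Submodule.span_singleton_le_iff_mem _ _).2
        (mem_Fx.2 ?_))) ((Submodule.span_singleton_le_iff_mem _ _).2 (mem_Fx.2 ?_))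
    · simp [hsx, mem_Fx.1 hw, hperp _ w hw, -map_sub]
    · rw [LinearEquiv.mul_apply, hsx, map_sub, map_sub, h.hB.alt, hxx, hgS,
        show B x y - B (g x) y = -1 by linear_combination -hy']
      module
    · have : B (g y) (g x - x) = -1 := by
        have h4 : B (g y) (g x - x) = B (g x - x) (g y - y) + B (g x - x) y := by
          rw [h.sym]; simp only [map_sub, LinearMap.sub_apply]; ring
        rw [h4, hpp, hy]; linear_combination h.h2
      rw [LinearEquiv.mul_apply, hsx, this, map_sub, h.hB.alt, hxx]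
      module
  have h4 := Submodule.finrank_mono h3
  rw [Submodule.finrank_sup_span_singleton hyF, Submodule.finrank_sup_span_singleton hxF] at h4
  have h5 := Submodule.finrank_mono (Fx_le (g := g) (h := s)
    (K := LinearMap.ker (B.flip (g x - x)) ⊓ LinearMap.ker (B.flip (g y - y))) fun v hv => by
      have h6 : B v (g x - x) = 0 := hv.1
      have h7 : B v (g y - y) = 0 := hv.2
      simp [hsx, h6, h7, -map_sub])
  have h6 := finrank_inf_ker_ge (Fx (s * g)) (B.flip (g x - x))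
  have h7 := finrank_inf_ker_ge (Fx (s * g) ⊓ LinearMap.ker (B.flip (g x - x))) (B.flip (g y - y))
  rw [inf_assoc] at h7
  have e2 := rk_add (s * g)
  have e3 : rk g = rk (s * g) + 2 := by omega
  rcases ih (rk (s * g)) (by omega) (s * g) (mul_mem hs.1 hg) rfl with h8 | h8
  · exact Or.inl ⟨by rw [e3]; exact h8.1.add even_two, by simpa using mul_mem (inv_mem hs) h8.2⟩
  · refine Or.inr ⟨by rw [e3]; exact h8.1.add_even even_two, ?_⟩
    convert mul_mem (NC_conj (inv_mem hs) (hrO a ha)) h8.2 using 1; group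

theorem PS.orth_cases : L = OQ Q ∨ ∀ g, g ∈ L ↔ g ∈ OQ Q ∧ Even (rk g) := by
  obtain ⟨e, f, hef⟩ := exists_hyp h.hB (by have := h.hn; omega)
  obtain ⟨a, -, -, ha⟩ := hQ.exists_nonsing h.hB h.hn (x := e) (y := f) (by simp [hef])
  by_cases h1 : ∃ g ∈ L, Odd (rk g)
  · obtain ⟨g, hg, ho⟩ := h1
    have h3 : tvE h.hB a (Q a)⁻¹ ∈ L := by
      rcases h.parity hQ hLO hS ha g (hLO hg) with h3 | h3
      · exact absurd h3.1 (Nat.not_even_iff_odd.2 ho)
      · simpa using mul_mem (NC_le h3.2) (inv_mem hg)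
    refine Or.inl (le_antisymm hLO fun k hk => ?_)
    rcases h.parity hQ hLO hS ha k hk with h4 | h4
    · exact NC_le h4.2
    · simpa using mul_mem (inv_mem h3) (NC_le h4.2)
  · push Not at h1
    refine Or.inr fun g => ⟨fun hg => ⟨hLO hg, Nat.not_odd_iff_even.1 (h1 g hg)⟩, fun hg => ?_⟩
    rcases h.parity hQ hLO hS ha g hg.1 with h4 | h4
    · exact NC_le h4.2
    · exact absurd hg.2 (Nat.not_even_iff_odd.2 h4.1)

end

section All

variable (hB : Symp B) (hL : L ≤ Sp B) (hA : ∀ v, Good B L v) (hn : 4 ≤ finrank F V)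
include hB hL hA hn

theorem all_trans {u v : V} (hu : u ≠ 0) (hv : v ≠ 0) : ∃ g ∈ L, g u = v := by
  have one : ∀ u w : V, u ≠ 0 → B u w = 0 → (∀ t : F, w ≠ t • u) → ∃ g ∈ L, g u = w := by
    intro u w hu huw hw
    obtain ⟨s, h1, h2⟩ := hB.exists_pair (e := w - u) (w := u) (by
      intro t ht
      have ht0 : t ≠ 0 := by rintro rfl; simp [hu] at ht
      apply hw (t⁻¹ * (1 + t))
      rw [mul_smul, eq_inv_smul_iff₀ ht0]
      linear_combination (norm := module) -ht)
    obtain ⟨g, hg, hx⟩ := (hA _).tr h1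
    exact ⟨g, hg, by rw [hx u (by simp [huw, hB.alt]), h2]; module⟩
  have hK := finrank_ker₂_ge (B u) (B v)
  obtain ⟨w₁, h1, h2⟩ := exists_not_mem_one (K := LinearMap.ker (B u) ⊓ LinearMap.ker (B v))
    (by omega) u
  obtain ⟨w₂, h3, h4⟩ := exists_not_mem_one (K := LinearMap.ker (B u) ⊓ LinearMap.ker (B v))
    (by omega) v
  obtain ⟨w, h5, h6, h7⟩ : ∃ w ∈ LinearMap.ker (B u) ⊓ LinearMap.ker (B v),
      (∀ t : F, w ≠ t • u) ∧ ∀ t : F, w ≠ t • v := by
    by_cases h5 : ∀ t : F, w₁ ≠ t • v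
    · exact ⟨w₁, h1, h2, h5⟩
    by_cases h6 : ∀ t : F, w₂ ≠ t • u
    · exact ⟨w₂, h3, h6, h4⟩
    push Not at h5 h6
    obtain ⟨s, hs⟩ := h5
    obtain ⟨t, ht⟩ := h6
    refine ⟨w₁ + w₂, add_mem h1 h3, fun c hc => h2 (c - t) ?_, fun c hc => h4 (c - s) ?_⟩
    · linear_combination (norm := module) hc - ht
    · linear_combination (norm := module) hc - hs
  obtain ⟨g, hg, hgu⟩ := one u w hu h5.1 h6
  obtain ⟨k, hk, hkv⟩ := one v w hv h5.2 h7
  exact ⟨k⁻¹ * g, mul_mem (inv_mem hk) hg, by rw [LinearEquiv.mul_apply, hgu, ← hkv, inv_apply_apply]⟩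

theorem all_Sp [Finite F] {p : V} {c : F} (hp : p ≠ 0) (hc : c ≠ 0) (hT : T B L p c) :
    L = Sp B := by
  refine le_antisymm hL (Sp_le hB hL fun v => full_of_smul hB hc fun a => ?_)
  by_cases h0 : a • v = 0
  · rw [h0]; exact T.zero_left c
  obtain ⟨g, hg, h1⟩ := all_trans hB hL hA hn hp h0
  exact h1 ▸ hT.conj hL hg

theorem all_small (h2 : (2 : F) = 0) (hT : ∀ p c, p ≠ 0 → T B L p c → c = 0) :
    (∀ t : F, t = 0 ∨ t = 1) ∧ finrank F V = 4 ∧
      ∀ p b p' b', B b p = 1 → B b' p' = 1 → ∃ g ∈ L, g p = p' ∧ g b = b' := by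
  have uniq : ∀ {p y : V} {c d : F}, p ≠ 0 → B p y = 0 → R B L p y c → R B L p y d → c = d :=
    fun hp hy h1 h3 => sub_eq_zero.1 (hT _ _ hp (h1.subT hB h3 hy))
  have ka : ∀ {p y : V} {c : F}, B y p = 0 → (∀ t : F, p ≠ t • y) → R B L p y c → c ≠ 0 →
      ∀ t, R B L y (t • p) (t ^ 2 / c) := by
    intro p y c hyp hi hR hc t
    refine ((hA y).lemK hB hL hyp hi hR (t / c)).congr ?_ ?_
    · rw [mul_div_cancel₀ _ hc]
    · rw [h2]; field_simp; ring
  obtain ⟨p, b, hpb⟩ := exists_hyp hB (by omega)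
  have hp0 : p ≠ 0 := by rintro rfl; simp at hpb
  obtain ⟨y, c, hy0, hpy, hby, hR, hc⟩ : ∃ y c, y ≠ 0 ∧ B p y = 0 ∧ B b y = 0 ∧ R B L p y c ∧
      c ≠ 0 := by
    obtain ⟨e, f, hef, h1, h3, h4, h5⟩ := exists_hyp_perp hB (by omega) (e := p) (f := b)
      (by simp [hpb])
    obtain ⟨c, hc⟩ := hA p e h1
    obtain ⟨d, hd⟩ := hA p f h3
    by_cases h6 : c = 0
    · by_cases h7 : d = 0
      · refine ⟨_, _, ?_, by simp [h1, h3], by simp [h4, h5], hc.mul hB hd h1 h3, ?_⟩
        · intro h0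
          have := congrArg (B e) h0
          simp [hB.alt, hef] at this
        · simp [h6, h7, hB.skew f e, hef]
      · exact ⟨f, d, by rintro rfl; simp at hef, h3, h5, hd, h7⟩
    · exact ⟨e, c, by rintro rfl; simp at hef, h1, h4, hc, h6⟩
  have hyp := hB.comm.1 hpy
  have i1 : ∀ t s : F, t ≠ 0 → t • p ≠ s • y := fun t s ht h0 => by
    have := congrArg (fun x => B x b) h0
    simp [hpb, hB.comm.1 hby, ht] at this
  have i2 : ∀ s : F, y ≠ s • p := fun s h0 => by
    have := congrArg (fun x => B x b) h0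
    simp [hpb, hB.comm.1 hby] at this
    simp [← this, hy0] at h0
  have i3 : ∀ s : F, p ≠ s • y := fun s => by simpa using i1 1 s one_ne_zero
  have hF : ∀ t : F, t = 0 ∨ t = 1 := by
    intro t
    by_cases ht : t = 0
    · exact Or.inl ht
    right
    have h1 := ka hyp i3 hR hc
    have h3 := ka hpy i2 (by simpa using h1 1) (inv_ne_zero hc) t
    have h4 : R B L (t • p) y c := R_smul_left.2 (h3.congr rfl (by field_simp))
    have h5 := ka (by simp [hyp]) (fun s => i1 t s ht) h4 hc 1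
    have h6 := uniq hy0 (by simp [hyp]) (h1 t) (h5.congr (by simp) rfl)
    field_simp at h6
    have : (t - 1) ^ 2 = 0 := by linear_combination h6 + (1 - t) * h2
    linear_combination pow_eq_zero_iff two_ne_zero |>.1 this
  refine ⟨hF, ?_, ?_⟩
  · by_contra h5
    have hK := finrank_ker₂_ge (B p) (B y)
    obtain ⟨z, ⟨hz1, hz2⟩, hz⟩ := exists_not_mem_pair
      (K := LinearMap.ker (B p) ⊓ LinearMap.ker (B y)) (by omega) p y
    have key : ∀ z, B p z = 0 → B y z = 0 → (∀ a b : F, z ≠ a • p + b • y) → R B L p z c := by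
      intro z h1 h3 hz
      obtain ⟨φ, h4, h6, h7⟩ := exists_dual_triple (F := F) (x := p) (y := z - y) (w := y) (by
        intro α β h0
        by_cases hβ : β = 0
        · exact i2 α (by simpa [hβ] using h0)
        · apply hz (-(β⁻¹ * α)) (β⁻¹ * (1 + β))
          apply smul_right_injective V hβ
          simp only [smul_add, smul_smul, mul_neg, mul_inv_cancel_left₀ hβ]
          linear_combination (norm := module) -h0)
      obtain ⟨s, hs⟩ := hB.exists_dual φ
      obtain ⟨g, hg, hx⟩ := (hA (z - y)).tr (s := s) (by rw [hs, h6])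
      have := hR.conj hL hg
      rw [hx p (by simp [h1, hpy]), hx y (by simp [h3, hB.alt]), hs, hs, h4, h7] at this
      simpa using this
    have h6 := (key z hz1 hz2 hz).mul hB (key (y - z) (by simp [hpy, show B p z = 0 from hz1])
      (by simp [hB.alt, show B y z = 0 from hz2]) (fun a b h0 => hz (-a) (1 - b) (by
        linear_combination (norm := module) -h0))) hz1 (by simp [hpy, show B p z = 0 from hz1])
    have := uniq hp0 hpy hR (h6.congr (by abel) rfl)
    simp [hB.alt, show B y z = 0 from hz2] at this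
    exact hc this
  · have hc1 : c = 1 := (hF c).resolve_left hc
    subst hc1
    have k1 : ∀ b, B b p = 1 → ∃ g ∈ L, g p = p ∧ g b = b + p := by
      intro b' hb'
      have h1 := hR.add_smul_self (-B b' y)
      rw [h2, zero_mul, sub_zero] at h1
      generalize hy' : y + -B b' y • p = y' at h1
      have h3 : B p y' = 0 := by simp [← hy', hpy, hB.alt]
      have h4 : B b' y' = 0 := by simp [← hy', hb']
      obtain ⟨g, hg, hgx⟩ := ka (hB.comm.1 h3) (fun s h0 => by
        rw [h0] at hb'; simp [h4] at hb') h1 one_ne_zero 1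
      obtain ⟨k, hk, hkx⟩ := h1
      refine ⟨g * k, mul_mem hg hk, by simp [hgx, hkx, h3, hB.alt], ?_⟩
      simp only [LinearEquiv.mul_apply, hgx, hkx, h4, hb', map_add, map_smul, h3, hB.comm.1 h3,
        LinearMap.add_apply, LinearMap.smul_apply, hB.alt]
      have : (2 : F) • y' = 0 := by rw [h2, zero_smul]
      linear_combination (norm := module) this
    have k2 : ∀ b b', B b p = 1 → B b' p = 1 → ∃ g ∈ L, g p = p ∧ g b = b' := by
      intro b b' hb hb'
      obtain ⟨d, g, hg, hx⟩ := hA p (b' - b) (by simp [hB.skew p, hb, hb'])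
      have h1 : g p = p := by simp [hx, hB.alt, hB.skew p b, hB.skew p b', hb, hb']
      rcases hF (B b (b' - b) + d * B b p) with h3 | h3
      · exact ⟨g, hg, h1, by rw [hx, h3, hb]; module⟩
      · obtain ⟨k, hk, h4, h5⟩ := k1 b' hb'
        refine ⟨k⁻¹ * g, mul_mem (inv_mem hk) hg, ?_, ?_⟩
        · rw [LinearEquiv.mul_apply, h1]; nth_rewrite 1 [← h4]; rw [inv_apply_apply]
        · rw [LinearEquiv.mul_apply, hx, h3, hb, show b + (1 : F) • (b' - b) + (1 : F) • p = b' + p by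
            module, ← h5, inv_apply_apply]
    intro p₁ b₁ p₂ b₂ h1 h3
    obtain ⟨g₁, hg₁, h4⟩ := all_trans hB hL hA hn (u := p₁) (by rintro rfl; simp at h1) hp0
    obtain ⟨g₂, hg₂, h5⟩ := all_trans hB hL hA hn (u := p₂) (by rintro rfl; simp at h3) hp0
    obtain ⟨g, hg, h6, h7⟩ := k2 (g₁ b₁) (g₂ b₂) (by rw [← h4, hL hg₁, h1]) (by rw [← h5, hL hg₂, h3])
    refine ⟨g₂⁻¹ * g * g₁, mul_mem (mul_mem (inv_mem hg₂) hg) hg₁, ?_, ?_⟩
    · simp only [LinearEquiv.mul_apply]; rw [h4, h6, ← h5, inv_apply_apply]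
    · simp only [LinearEquiv.mul_apply]; rw [h7, inv_apply_apply]

end All

end Cfsg.Agent.H9.Sp
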