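import Cfsg.Agent.H9.Sp.Pt2
import Cfsg.Agent.H9.SymSix
import Cfsg.Agent.H1.PermMod

/-! `Sp₄(2) ≅ S₆` and the small cases. -/

set_option autoImplicit false
set_option linter.unusedSimpArgs false
set_option linter.unusedSectionVars false
set_option linter.unusedVariables false

namespace Cfsg.Agent.H9.Sp

open Module Cfsg.Agent.H6 Equiv

attribute [-simp] LinearEquiv.coe_inv Submodule.mem_map_equiv

variable {F : Type*} [Field F] {V : Type*} [AddCommGroup V] [Module F V] [FiniteDimensional F V]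
variable {B : V →ₗ[F] V →ₗ[F] F} {L : Subgroup (V ≃ₗ[F] V)}

/-- Kronecker delta -/
def dl (F : Type*) [Field F] (i j : Fin 6) : F := if i = j then 1 else 0

/-- six vectors modelling the even-weight module of `S₆` -/
structure Six (B : V →ₗ[F] V →ₗ[F] F) (v : Fin 6 → V) : Prop where
  hB : Symp B
  hF : ∀ t : F, t = 0 ∨ t = 1
  bil : ∀ i k, B (v i) (v k) = dl F i k + 1 + dl F i 5 + dl F k 5
  sum : v 0 + v 1 + v 2 + v 3 + v 4 + v 5 = 0
  five : v 5 = 0
  span : ∀ x, B x (v 0) = 0 → B x (v 1) = 0 → B x (v 2) = 0 → B x (v 3) = 0 → x = 0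

variable {v : Fin 6 → V}

theorem two_of_hF (hF : ∀ t : F, t = 0 ∨ t = 1) : (2 : F) = 0 := by
  rcases hF 2 with h | h
  · exact h
  · exfalso; apply (one_ne_zero : (1 : F) ≠ 0); linear_combination h

theorem Six.h2 (h : Six B v) : (2 : F) = 0 := two_of_hF h.hF

theorem Six.xx (h : Six B v) (x : V) : x + x = 0 := by rw [← two_smul F x, h.h2, zero_smul]

theorem Six.pair (h : Six B v) (i j k l : Fin 6) :
    B (v i + v j) (v k + v l) = dl F i k + dl F i l + dl F j k + dl F j l := by
  simp only [map_add, LinearMap.add_apply, h.bil]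
  linear_combination (2 + dl F i 5 + dl F j 5 + dl F k 5 + dl F l 5) * h.h2

theorem Six.inj (h : Six B v) {i j k l : Fin 6} (hij : i ≠ j) (e : v i + v j = v k + v l) :
    i = k ∨ i = l := by
  by_contra! h'
  obtain ⟨m, h1, h2, h3, h4⟩ : ∃ m, i ≠ m ∧ j ≠ m ∧ k ≠ m ∧ l ≠ m := by
    clear * -
    revert i j k l; decide
  have := h.pair i j i m
  rw [e, h.pair] at this
  simp [dl, h1, h2, h3, h4, hij.symm, h'.1.symm, h'.2.symm] at this

/-- the linear map attached to a permutation -/
def sixL (B : V →ₗ[F] V →ₗ[F] F) (v : Fin 6 → V) (σ : Perm (Fin 6)) : V →ₗ[F] V :=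
  (B.flip (v 0 + v 4)).smulRight (v (σ 0) + v (σ 5)) +
  (B.flip (v 1 + v 4)).smulRight (v (σ 1) + v (σ 5)) +
  (B.flip (v 2 + v 4)).smulRight (v (σ 2) + v (σ 5)) +
  (B.flip (v 3 + v 4)).smulRight (v (σ 3) + v (σ 5))

theorem sixL_apply (σ : Perm (Fin 6)) (x : V) : sixL B v σ x =
    B x (v 0 + v 4) • (v (σ 0) + v (σ 5)) + B x (v 1 + v 4) • (v (σ 1) + v (σ 5)) +
    B x (v 2 + v 4) • (v (σ 2) + v (σ 5)) + B x (v 3 + v 4) • (v (σ 3) + v (σ 5)) := rfl

theorem Six.L_v (h : Six B v) (σ : Perm (Fin 6)) (j : Fin 6) :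
    sixL B v σ (v j) = v (σ j) + v (σ 5) := by
  have hs := Equiv.sum_comp σ v
  rw [Fin.sum_univ_six, Fin.sum_univ_six, h.sum] at hs
  have e : v j = v j + v 5 := by rw [h.five, add_zero]
  rw [sixL_apply, e]
  simp only [h.pair]
  have h1 : (1 : F) + 1 = 0 := by linear_combination h.h2
  fin_cases j <;> simp [dl, h1, h.xx]
  linear_combination (norm := module) hs + h.xx (v (σ 5)) - h.xx (v (σ 4))

theorem Six.L_pair (h : Six B v) (σ : Perm (Fin 6)) (i j : Fin 6) :
    sixL B v σ (v i + v j) = v (σ i) + v (σ j) := by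
  rw [map_add, h.L_v, h.L_v]
  linear_combination (norm := module) h.xx (v (σ 5))

theorem Six.L_one (h : Six B v) (x : V) : sixL B v 1 x = x := by
  rw [← sub_eq_zero]
  have h1 : (1 : F) + 1 = 0 := by linear_combination h.h2
  have h4 : v 4 = v 0 + v 1 + v 2 + v 3 := by
    linear_combination (norm := module) h.sum - h.five - h.xx (v 0 + v 1 + v 2 + v 3)
  apply h.span <;>
  simp only [sixL_apply, Perm.one_apply, map_sub, map_add, map_smul, LinearMap.sub_apply,
    LinearMap.add_apply, LinearMap.smul_apply, h.bil, h.five, add_zero, smul_eq_mul] <;>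
  simp [dl, h1, h4]
  · linear_combination (2 * B x (v 1) + 2 * B x (v 2) + 2 * B x (v 3) + B x (v 0)) * h.h2
  · linear_combination (2 * B x (v 0) + 2 * B x (v 2) + 2 * B x (v 3) + B x (v 1)) * h.h2
  · linear_combination (2 * B x (v 1) + 2 * B x (v 0) + 2 * B x (v 3) + B x (v 2)) * h.h2
  · linear_combination (2 * B x (v 1) + 2 * B x (v 2) + 2 * B x (v 0) + B x (v 3)) * h.h2

theorem Six.ext (h : Six B v) {W : Type*} [AddCommGroup W] [Module F W] {f g : V →ₗ[F] W}
    (e : ∀ i j, f (v i + v j) = g (v i + v j)) (x : V) : f x = g x := by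
  rw [← h.L_one x, sixL_apply]
  simp only [map_add f (_ • _), map_add f (_ + _ • _), map_add g (_ • _), map_add g (_ + _ • _),
    map_smul, e]

theorem Six.exists_pair (h : Six B v) (x : V) : ∃ i j, x = v i + v j := by
  have := (h.L_one x).symm
  rw [sixL_apply] at this
  simp only [Perm.one_apply, h.five, add_zero] at this
  have h4 : v 0 + v 1 + v 2 + v 3 + v 4 = 0 := by simpa [h.five] using h.sum
  have h5 := h.five
  rcases h.hF (B x (v 0 + v 4)) with a | a <;> rcases h.hF (B x (v 1 + v 4)) with b | b <;>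
    rcases h.hF (B x (v 2 + v 4)) with c | c <;> rcases h.hF (B x (v 3 + v 4)) with d | d <;>
    rw [a, b, c, d] at this
  · exact ⟨5, 5, by linear_combination (norm := module) this - h5 - h5⟩
  · exact ⟨3, 5, by linear_combination (norm := module) this - h5⟩
  · exact ⟨2, 5, by linear_combination (norm := module) this - h5⟩
  · exact ⟨2, 3, by linear_combination (norm := module) this⟩
  · exact ⟨1, 5, by linear_combination (norm := module) this - h5⟩
  · exact ⟨1, 3, by linear_combination (norm := module) this⟩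
  · exact ⟨1, 2, by linear_combination (norm := module) this⟩
  · exact ⟨0, 4, by linear_combination (norm := module) this + h4 - h.xx (v 0 + v 4)⟩
  · exact ⟨0, 5, by linear_combination (norm := module) this - h5⟩
  · exact ⟨0, 3, by linear_combination (norm := module) this⟩
  · exact ⟨0, 2, by linear_combination (norm := module) this⟩
  · exact ⟨1, 4, by linear_combination (norm := module) this + h4 - h.xx (v 1 + v 4)⟩
  · exact ⟨0, 1, by linear_combination (norm := module) this⟩
  · exact ⟨2, 4, by linear_combination (norm := module) this + h4 - h.xx (v 2 + v 4)⟩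
  · exact ⟨3, 4, by linear_combination (norm := module) this + h4 - h.xx (v 3 + v 4)⟩
  · exact ⟨4, 5, by linear_combination (norm := module) this + h4 - h.xx (v 4) - h5⟩

theorem Six.L_iso (h : Six B v) (σ : Perm (Fin 6)) (x y : V) :
    B (sixL B v σ x) (sixL B v σ y) = B x y := by
  obtain ⟨i, j, rfl⟩ := h.exists_pair x
  obtain ⟨k, l, rfl⟩ := h.exists_pair y
  simp only [h.L_pair, h.pair, dl, σ.injective.eq_iff]

/-- the representation of `S₆` -/
noncomputable def Six.rho (h : Six B v) : Perm (Fin 6) →* (V ≃ₗ[F] V) :=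
  MonoidHom.mk' (fun σ => mkSp h.hB (sixL B v σ) (h.L_iso σ)) (by
    intro σ τ
    ext x
    obtain ⟨i, j, rfl⟩ := h.exists_pair x
    simp only [mkSp_apply, LinearEquiv.mul_apply, h.L_pair, Perm.mul_apply])

theorem Six.rho_pair (h : Six B v) (σ : Perm (Fin 6)) (i j : Fin 6) :
    h.rho σ (v i + v j) = v (σ i) + v (σ j) := h.L_pair σ i j

theorem Six.rho_mem (h : Six B v) (σ : Perm (Fin 6)) : h.rho σ ∈ Sp B := h.L_iso σ

theorem Six.rho_inj (h : Six B v) : Function.Injective h.rho := by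
  rw [injective_iff_map_eq_one]
  intro σ hσ
  ext1 i
  obtain ⟨j, k, h1, h2, h3⟩ : ∃ j k, i ≠ j ∧ i ≠ k ∧ j ≠ k := by
    clear * -
    revert i; decide
  have h4 := h.rho_pair σ i j
  have h5 := h.rho_pair σ i k
  rw [hσ] at h4 h5
  rcases h.inj (σ.injective.ne h1) h4.symm with h6 | h6
  · exact h6
  rcases h.inj (σ.injective.ne h2) h5.symm with h7 | h7
  · exact h7
  · exact absurd (h6.symm.trans h7) h3

theorem Six.rho_swap (h : Six B v) {i j : Fin 6} (hij : i ≠ j) (x : V) :
    h.rho (swap i j) x = x + (1 * B x (v i + v j)) • (v i + v j) := by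
  have k : ∀ k, v (swap i j k) = v k + (dl F k i + dl F k j) • (v i + v j) := by
    intro k
    by_cases h1 : k = i
    · subst h1; simp [dl, hij]; linear_combination (norm := module) -h.xx (v k)
    by_cases h2 : k = j
    · subst h2; simp [dl, h1]; linear_combination (norm := module) -h.xx (v k)
    · simp [dl, h1, h2, swap_apply_of_ne_of_ne]
  obtain ⟨a, b, rfl⟩ := h.exists_pair x
  rw [h.rho_pair, k, k, h.pair]; module

theorem Six.le_range (h : Six B v) : Sp B ≤ h.rho.range := by
  refine Sp_le h.hB (by rintro _ ⟨σ, rfl⟩; exact h.rho_mem σ) fun x c => ?_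
  rcases h.hF c with rfl | rfl
  · exact T.zero_right x
  obtain ⟨i, j, rfl⟩ := h.exists_pair x
  by_cases hij : i = j
  · rw [hij, h.xx]; exact T.zero_left 1
  · exact ⟨_, ⟨swap i j, rfl⟩, h.rho_swap hij⟩

theorem Six.cases (h : Six B v) (hL : L ≤ Sp B) (hT : ∀ p c, p ≠ 0 → T B L p c → c = 0)
    (htr : ∀ p b p' b', B b p = 1 → B b' p' = 1 → ∃ g ∈ L, g p = p' ∧ g b = b') :
    Nonempty (L ≃* alternatingGroup (Fin 6)) ∨ Nonempty (L ≃* Perm (Fin 5)) := by
  set K := L.comap h.rho with hK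
  have e : K ≃* L := (K.equivMapOfInjective _ h.rho_inj).trans
    (MulEquiv.subgroupCongr (Subgroup.map_comap_eq_self (hL.trans h.le_range)))
  have hb : B (v 1 + v 2) (v 0 + v 1) = 1 := by rw [h.pair]; simp [dl]
  have hne : K ≠ ⊤ := by
    intro h1
    have : swap 0 1 ∈ K := h1 ▸ trivial
    exact one_ne_zero (hT (v 0 + v 1) 1 (by rintro h0; simp [h0] at hb)
      ⟨_, this, h.rho_swap (by decide)⟩)
  by_cases hA : K = alternatingGroup (Fin 6)
  · exact Or.inl ⟨e.symm.trans (MulEquiv.subgroupCongr hA)⟩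
  right
  have h1 := card_le_index (by simp) K hne hA
  have h2 : K.index ≤ 6 := by
    have hs : Function.Surjective fun s : Perm {a : Fin 6 // 3 ≤ a} =>
        (QuotientGroup.mk (Perm.ofSubtype s) : Perm (Fin 6) ⧸ K) := by
      intro q
      obtain ⟨τ, rfl⟩ := QuotientGroup.mk_surjective q
      obtain ⟨g, hg, h3, h4⟩ := htr (h.rho τ⁻¹ (v 0 + v 1)) (h.rho τ⁻¹ (v 1 + v 2)) _ _
        (by rw [h.rho_mem, hb]) hb
      obtain ⟨k, rfl⟩ := h.le_range (hL hg)
      rw [h.rho_pair, h.rho_pair] at h3 h4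
      have h5 : v (k (τ⁻¹ 0)) + v (k (τ⁻¹ 2)) = v 0 + v 2 := by
        linear_combination (norm := module) h3 + h4 - h.xx (v (k (τ⁻¹ 1))) + h.xx (v 1)
      have n : ∀ {i j : Fin 6}, i ≠ j → k (τ⁻¹ i) ≠ k (τ⁻¹ j) := fun hij =>
        (k * τ⁻¹).injective.ne hij
      have a0 := h.inj (n (by decide)) h3
      have a1 := h.inj (n (by decide)) h5
      have a2 := h.inj (n (by decide)) ((add_comm _ _).trans h3)
      have a3 := h.inj (n (by decide)) h4
      have a4 := h.inj (n (by decide)) ((add_comm _ _).trans h4)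
      have a5 := h.inj (n (by decide)) ((add_comm _ _).trans h5)
      obtain ⟨s, hs⟩ : (k * τ⁻¹)⁻¹ ∈ (Perm.ofSubtype : Perm {a : Fin 6 // 3 ≤ a} →* _).range := by
        apply inv_mem
        rw [Perm.mem_range_ofSubtype_iff]
        intro x hx
        have hx' : k (τ⁻¹ x) ≠ x := by simpa using hx
        change 3 ≤ x
        have f0 : k (τ⁻¹ 0) = 0 := by omega
        have f1 : k (τ⁻¹ 1) = 1 := by omega
        have f2 : k (τ⁻¹ 2) = 2 := by omega
        fin_cases x
        · exact absurd f0 hx'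
        · exact absurd f1 hx'
        · exact absurd f2 hx'
        all_goals decide
      refine ⟨s, ?_⟩
      simp only [hs]
      rw [QuotientGroup.eq, inv_inv, inv_mul_cancel_right]
      exact hg
    have := Nat.card_le_card_of_surjective _ hs
    rw [Nat.card_perm, Nat.card_eq_fintype_card (α := {a : Fin 6 // 3 ≤ a}),
      show Fintype.card {a : Fin 6 // 3 ≤ a} = 3 by decide] at this
    exact this
  obtain ⟨ψ, hψ⟩ := exists_aut_of_index (by simp) K (by simp at h1 ⊢; omega) (5 : Fin 6)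
  obtain ⟨e2⟩ := stabilizer_perm_equiv (5 : Fin 6)
  have e3 : {x : Fin 6 // x ≠ 5} ≃ Fin 5 := Fintype.equivFinOfCardEq (by decide)
  exact ⟨e.symm.trans ((MulEquiv.subgroupCongr hψ).trans
    (((MulAction.stabilizer (Perm (Fin 6)) 5).equivMapOfInjective _ ψ.injective).symm.trans
      (e2.trans e3.permCongrHom)))⟩

theorem exists_six (hB : Symp B) (hF : ∀ t : F, t = 0 ∨ t = 1) (hn : finrank F V = 4) :
    ∃ v, Six B v := by
  have h2 := two_of_hF hF
  have h1 : (1 : F) + 1 = 0 := by linear_combination h2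
  have sym : ∀ x y, B x y = B y x := fun x y => by rw [hB.skew]; linear_combination -B y x * h2
  obtain ⟨e, f, hef⟩ := exists_hyp hB (by omega)
  obtain ⟨e', f', hef', a1, a2, a3, a4⟩ := exists_hyp_perp hB (by omega) (e := e) (f := f)
    (by simp [hef])
  refine ⟨![e, f, e + f + e', e + f + f', e + f + e' + f', 0], hB, hF, ?_, ?_, rfl, ?_⟩
  · intro i k
    fin_cases i <;> fin_cases k <;>
      simp [dl, hB.alt, hef, hef', a1, a2, a3, a4, sym f e, sym e' e, sym f' e, sym e' f, sym f' f,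
        sym f' e', h1]
  · have : ∀ x : V, (2 : F) • x = 0 := fun x => by rw [h2, zero_smul]
    simp only [Matrix.cons_val_zero, Matrix.cons_val_one, Matrix.cons_val]
    linear_combination (norm := module) this (e + e + f + f + e' + f')
  · intro x b1 b2 b3 b4
    simp only [Matrix.cons_val_zero, Matrix.cons_val_one, Matrix.cons_val, map_add] at b1 b2 b3 b4
    simp only [b1, b2, zero_add] at b3 b4
    by_contra hx
    obtain ⟨y, hy⟩ := hB.exists_one hx
    have hi : LinearIndependent F ![x, e, f, e', f'] := by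
      rw [Fintype.linearIndependent_iff]
      intro c hc
      simp only [Fin.sum_univ_five, Matrix.cons_val_zero, Matrix.cons_val_one, Matrix.cons_val] at hc
      have c1 := congrArg (fun z => B z f) hc
      have c2 := congrArg (fun z => B z e) hc
      have c3 := congrArg (fun z => B z f') hc
      have c4 := congrArg (fun z => B z e') hc
      simp [hB.alt, hef, hef', a1, a2, a3, a4, sym f e, sym e' e, sym f' e, sym e' f, sym f' f,
        sym f' e', b1, b2, b3, b4] at c1 c2 c3 c4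
      simp [c1, c2, c3, c4, hx] at hc
      intro i; fin_cases i <;> assumption
    have := hi.fintype_card_le_finrank
    simp at this; omega

theorem trivial_of_pgroup {p : ℕ} [Fact p.Prime] [CharP F p] (hB : Symp B)
    (hn : 3 ≤ finrank F V) {a : V} {G : Type*} [Group G] (φ : G →* (V ≃ₗ[F] V))
    (h1 : ∀ g, φ g ∈ Sp B ∧ φ g a = a) (h2 : ∀ k ∈ Sp B, k a = a → ∃ g, φ g = k)
    (P : Subgroup G) [Finite P] [P.Normal] (hP : IsPGroup p P) {x : G} (hx : x ∈ P) (w : V)
    (hw : B a w = 0) : ∃ t : F, φ x w = w + t • a := by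
  let ρ : Representation F P V :=
    (LinearEquiv.automorphismGroup.toLinearMapMonoidHom.comp φ).comp P.subtype
  have hρ : ∀ g v, ρ g v = φ g v := fun _ _ => rfl
  obtain ⟨q, ⟨u, hu, rfl⟩, hq0, hq⟩ := H1.exists_fixed_of_isPGroup hP
    (ρ.quotient (Submodule.span F {a}) (fun g => by
      rw [Submodule.span_singleton_le_iff_mem, Submodule.mem_comap, hρ, (h1 g).2]
      exact Submodule.mem_span_singleton_self a))
    ((LinearMap.ker (B a)).map (Submodule.span F {a}).mkQ) (by
      rintro g _ ⟨u, hu, rfl⟩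
      refine ⟨φ g u, ?_, rfl⟩
      change B a _ = 0
      rw [← (h1 g).2, (h1 g).1]; exact hu) (by
      have := finrank_ker_ge (B a)
      obtain ⟨u, hu, hu'⟩ := exists_not_mem_one (K := LinearMap.ker (B a)) (by omega) a
      intro h0
      have : (Submodule.span F {a}).mkQ u ∈ (⊥ : Submodule F _) := h0 ▸ ⟨u, hu, rfl⟩
      obtain ⟨c, hc⟩ := Submodule.mem_span_singleton.1 ((Submodule.Quotient.mk_eq_zero _).1 this)
      exact hu' c hc.symm)
  have hu0 : ∀ t : F, u ≠ t • a := fun t ht => hq0 ((Submodule.Quotient.mk_eq_zero _).2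
    (ht ▸ Submodule.smul_mem _ _ (Submodule.mem_span_singleton_self a)))
  by_cases h3 : ∃ t : F, w = t • a
  · obtain ⟨t, rfl⟩ := h3
    exact ⟨0, by simp [(h1 x).2]⟩
  push Not at h3
  have h4 : ∀ z, (∀ t : F, z ≠ t • a) → ∃ s ∈ LinearMap.ker (B a), B z s ≠ 0 := by
    intro z hz
    obtain ⟨s, h5, h6⟩ := hB.exists_pair hz
    exact ⟨s, h5, by simp [h6]⟩
  obtain ⟨k, hk, hku, hka, -⟩ := move hB (S := LinearMap.ker (B a)) (fun s _ => full_Sp hB s)
    (x := u) (y := w) (sub_mem hw hu) (h4 u hu0) (h4 w h3)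
  obtain ⟨g, rfl⟩ := h2 k hk (hka a fun s hs => hs)
  have h5 := hq ⟨g⁻¹ * x * g⁻¹⁻¹, Subgroup.Normal.conj_mem inferInstance x hx g⁻¹⟩
  obtain ⟨c, hc⟩ := Submodule.mem_span_singleton.1 ((Submodule.Quotient.eq _).1 h5)
  refine ⟨c, ?_⟩
  have h6 := congrArg (φ g) hc
  simp only [hρ, map_smul, map_sub, (h1 g).2, inv_inv, map_mul, map_inv, LinearEquiv.mul_apply,
    apply_inv_apply, hku] at h6
  rw [h6]; abel

theorem exists_R_of_trivial (hB : Symp B) {a b : V} (hba : B b a = 1) {x : V ≃ₗ[F] V}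
    (hx : x ∈ Sp B) (hxa : x a = a) (h : ∀ w, B a w = 0 → ∃ t : F, x w = w + t • a) :
    ∃ y c, B a y = 0 ∧ B b y = 0 ∧ ∀ v, x v = v + B v a • y + (B v y + c * B v a) • a := by
  have hab : B a b = -1 := by rw [hB.skew, hba]
  have h1 : B a (x b) = -1 := by rw [← hxa, hx, hab]
  refine ⟨x b - b - B b (x b) • a, B b (x b), by simp [h1, hab, hB.alt],
    by simp [hba, hB.alt], fun v => ?_⟩
  obtain ⟨t, ht⟩ := h (v - B v a • b) (by simp [hab, hB.skew a v])
  have h2 := hx (v - B v a • b) b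
  rw [ht] at h2
  simp only [map_add, map_sub, map_smul, LinearMap.add_apply, LinearMap.sub_apply,
    LinearMap.smul_apply, h1, hB.alt, smul_eq_mul] at h2 ht ⊢
  have : t = B v (x b) - B v b - B v a * B b (x b) := by linear_combination -h2
  rw [this] at ht
  linear_combination (norm := module) ht

theorem good_of_card [Finite F] (hB : Symp B) {a b : V} (hba : B b a = 1)
    (h1 : ∀ x ∈ L, ∃ y c, B a y = 0 ∧ B b y = 0 ∧
      ∀ v, x v = v + B v a • y + (B v y + c * B v a) • a)
    (hc : Nat.card L = Nat.card F ^ (finrank F V - 2)) (hT : ∀ c, T B L a c → c = 0) :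
    Good B L a := by
  have hab : B a b = -1 := by rw [hB.skew, hba]
  let W := LinearMap.ker (B a) ⊓ LinearMap.ker (B b)
  choose y c hy1 hy2 hy3 using fun x : L => h1 x x.2
  have hW : finrank F W + 2 ≤ finrank F V := by
    have := Submodule.finrank_le (W ⊔ Submodule.span F {a} ⊔ Submodule.span F {b})
    rwa [Submodule.finrank_sup_span_singleton, Submodule.finrank_sup_span_singleton] at this
    · intro h
      have : B b a = 0 := h.2
      simp [hba] at this
    · intro h
      have : W ⊔ Submodule.span F {a} ≤ LinearMap.ker (B a) := sup_le inf_le_left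
        ((Submodule.span_singleton_le_iff_mem _ _).2 (hB.alt a))
      have h2 : B a b = 0 := this h
      simp [hab] at h2
  have : Finite V := Module.finite_of_finite F
  have hinj : Function.Injective fun x : L => (⟨y x, hy1 x, hy2 x⟩ : W) := by
    intro x x' h
    have h2 : y x = y x' := congrArg Subtype.val h
    have h3 := hT _ (R.subT hB ⟨_, x.2, hy3 x⟩ ⟨_, x'.2, h2 ▸ hy3 x'⟩ (hy1 x))
    ext v
    rw [hy3, hy3, h2, sub_eq_zero.1 h3]
  have hb := hinj.bijective_of_nat_card_le (by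
    rw [hc, Module.natCard_eq_pow_finrank (K := F)]
    exact Nat.pow_le_pow_right Nat.card_pos (by omega))
  intro z hz
  obtain ⟨x, hx⟩ := hb.2 ⟨z - B b z • a, by simp [hz, hB.alt], by simp [hba]⟩
  have h2 : y x = z - B b z • a := congrArg Subtype.val hx
  exact ⟨_, (R.add_smul_self ⟨_, x.2, hy3 x⟩ (B b z)).congr (by rw [h2]; abel) rfl⟩

theorem point_cases [Finite F] (hB : Symp B) (h2 : (2 : F) = 0) (hn : 4 ≤ finrank F V)
    (hL : L ≤ Sp B) {a : V} (ha0 : a ≠ 0) (ha : Good B L a)
    (hirr : ∀ W : Submodule F V, (∀ g ∈ L, ∀ w ∈ W, g w ∈ W) → W = ⊥ ∨ W = ⊤) :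
    L = Sp B ∨ (∃ Q, QF B Q ∧ (L = OQ Q ∨ ∀ g, g ∈ L ↔ g ∈ OQ Q ∧ Even (rk g))) ∨
      ((∀ t : F, t = 0 ∨ t = 1) ∧ finrank F V = 4 ∧
        (Nonempty (L ≃* alternatingGroup (Fin 6)) ∨ Nonempty (L ≃* Perm (Fin 5)))) := by
  by_cases hA : ∀ v, Good B L v
  · by_cases hT : ∀ p c, p ≠ 0 → T B L p c → c = 0
    · obtain ⟨h3, h4, h5⟩ := all_small hB hL hA hn h2 hT
      obtain ⟨v, hv⟩ := exists_six hB h3 h4
      exact Or.inr (Or.inr ⟨h3, h4, hv.cases hL hT h5⟩)
    · push Not at hT
      obtain ⟨p, c, h3, h4, h5⟩ := hT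
      exact Or.inl (all_Sp hB hL hA hn h3 h5 h4)
  have h : PS B L := by
    refine ⟨hB, h2, hL, fun z hz => ?_, by omega⟩
    rcases hirr (Submodule.span F {w | Good B L w}) (by
      intro g hg w hw
      have : Submodule.span F {w | Good B L w} ≤
          (Submodule.span F {w | Good B L w}).comap (g : V →ₗ[F] V) :=
        Submodule.span_le.2 fun w hw => Submodule.subset_span (Good.map hL hw hg)
      exact this hw) with h3 | h3
    · exact absurd ((Submodule.eq_bot_iff _).1 h3 a (Submodule.subset_span ha)) ha0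
    obtain ⟨w, hw, hwz⟩ : ∃ w, Good B L w ∧ B w z ≠ 0 := by
      by_contra! h4
      refine hz (hB.nd z fun x => ?_)
      have : Submodule.span F {w | Good B L w} ≤ LinearMap.ker (B.flip z) :=
        Submodule.span_le.2 fun w hw => h4 w hw
      exact this (h3 ▸ trivial)
    exact ⟨_, hw.smul (B w z)⁻¹, by simp [hwz]⟩
  obtain ⟨Q, hQ, hG⟩ := h.exists_QF hA
  exact Or.inr (Or.inl ⟨Q, hQ, h.orth_cases hQ (h.le_OQ hQ hG) fun p y => h.siegel hQ hG⟩)

end Cfsg.Agent.H9.Sp
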